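import Cfsg.Agent.H859.P4.Fld

/-!
# S5210, Q1 for odd `p`: the core, part 1 (helper859)

`L` is a group of automorphisms of `K × K` preserving the symplectic form `ff`, containing `(r, b) ↦ (r, b + c r)`, `c ∈ k`.
Part 1: `C = {(0, b)}` and `l C` are equal or meet trivially.
-/

set_option autoImplicit false

namespace Cfsg.Agent.H859.P4

universe u

variable {K : Type u} [Field K] [StarRing K]

/-- the form `Tr(r star b' - r' star b)` -/
def ff (v w : K × K) : K := v.1 * star w.2 + star v.1 * w.2 - (w.1 * star v.2 + star w.1 * v.2)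

/-- the hypotheses on `L` -/
structure CL (L : Subgroup (Equiv.Perm (K × K))) : Prop where
  add : ∀ g ∈ L, ∀ v w, g (v + w) = g v + g w
  sp : ∀ g ∈ L, ∀ v w, ff (g v) (g w) = ff v w
  rx : ∀ c : K, star c = c → ∃ g ∈ L, ∀ v, g v = v + c • ((0 : K), v.1)
  u1 : ∀ g ∈ L, (∀ b : K, g (0, b) = (0, b)) → ∃ c : K, star c = c ∧ ∀ v, g v = v + c • ((0 : K), v.1)
  tor : ∀ t : K, t ≠ 0 → ∀ g ∈ L, ∃ g' ∈ L, ∀ v : K × K,
    g' (t * t * v.1, t * t * (t * star t)⁻¹ * v.2) = (t * t * (g v).1, t * t * (t * star t)⁻¹ * (g v).2)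

/-- a scalar outside `k` spans with `1` -/
theorem span_k {u : K} (hu : star u ≠ u) (z : K) : ∃ c₁ c₂ : K, star c₁ = c₁ ∧ star c₂ = c₂ ∧ z = c₁ + c₂ * u := by
  have h0 : u - star u ≠ 0 := fun h => hu (sub_eq_zero.1 h).symm
  have h0' : star u - u ≠ 0 := fun h => hu (sub_eq_zero.1 h)
  have h2 : star ((z - star z) / (u - star u)) = (z - star z) / (u - star u) := by
    rw [star_div₀, star_sub, star_sub, star_star, star_star, div_eq_div_iff h0' h0]
    ring
  refine ⟨z - (z - star z) / (u - star u) * u, (z - star z) / (u - star u), ?_, h2, by ring⟩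
  rw [star_sub, star_mul', h2]
  field_simp
  ring

/-- two elements of `K` which are not proportional over `k` span `K` over `k` -/
theorem span_two {a b : K} (ha : a ≠ 0) (hab : ∀ c, star c = c → b ≠ c * a) (z : K) :
    ∃ c₁ c₂ : K, star c₁ = c₁ ∧ star c₂ = c₂ ∧ z = c₁ * a + c₂ * b := by
  have hu : star (b / a) ≠ b / a := fun h => hab _ h (by field_simp)
  obtain ⟨c₁, c₂, h1, h2, h3⟩ := span_k hu (z / a)
  refine ⟨c₁, c₂, h1, h2, ?_⟩
  have h4 : z = z / a * a := by field_simp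
  rw [h4, h3]
  field_simp

theorem ff_add (v v' w : K × K) : ff (v + v') w = ff v w + ff v' w := by
  simp only [ff, Prod.fst_add, Prod.snd_add, star_add]; ring

theorem ff_smul {c : K} (hc : star c = c) (v w : K × K) : ff (c • v) w = c * ff v w := by
  simp only [ff, Prod.smul_fst, Prod.smul_snd, smul_eq_mul, star_mul', hc]; ring

theorem ff_smul_right {c : K} (hc : star c = c) (v w : K × K) : ff v (c • w) = c * ff v w := by
  simp only [ff, Prod.smul_fst, Prod.smul_snd, smul_eq_mul, star_mul', hc]; ring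

theorem ff_nd (H : FH K) {v : K × K} (h : ∀ w, ff v w = 0) : v = 0 := by
  have h2 := H.two
  ext
  · by_contra h1
    have h1' : v.1 ≠ 0 := h1
    have h3 := h (0, star (v.1)⁻¹)
    simp only [ff, star_star, star_zero, zero_mul, add_zero, sub_zero, star_inv₀] at h3
    rw [mul_inv_cancel₀ h1', mul_inv_cancel₀ (by simpa using h1')] at h3
    exact h2 (by rw [← h3]; norm_num)
  · by_contra h1
    have h1' : v.2 ≠ 0 := h1
    have h3 := h (star (v.2)⁻¹, 0)
    simp only [ff, star_star, star_zero, mul_zero, add_zero, zero_sub, star_inv₀] at h3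
    rw [inv_mul_cancel₀ h1', inv_mul_cancel₀ (by simpa using h1')] at h3
    exact h2 (by linear_combination -h3)

variable {L : Subgroup (Equiv.Perm (K × K))}

theorem klin (H : FH K) (hL : CL L) {g : Equiv.Perm (K × K)} (hg : g ∈ L) {c : K} (hc : star c = c) (v : K × K) :
    g (c • v) = c • g v := by
  have h1 : g (c • v) + (-1 : K) • (c • g v) = 0 := by
    apply ff_nd H
    intro w
    obtain ⟨w', rfl⟩ := g.surjective w
    rw [ff_add, ff_smul (by simp), ff_smul hc, hL.sp g hg, hL.sp g hg, ff_smul hc]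
    ring
  rw [neg_one_smul] at h1
  exact add_neg_eq_zero.1 h1

/-- the nilpotent map `l N l⁻¹` -/
def MM (l : Equiv.Perm (K × K)) (v : K × K) : K × K := l (0, (l⁻¹ v).1)

theorem inv_smul' (H : FH K) (hL : CL L) {l : Equiv.Perm (K × K)} (hl : l ∈ L) {c : K} (hc : star c = c) (v : K × K) :
    l⁻¹ (c • v) = c • l⁻¹ v := klin H hL (L.inv_mem hl) hc v

theorem map_zero' (hL : CL L) {g : Equiv.Perm (K × K)} (hg : g ∈ L) : g 0 = 0 := by
  have h := hL.add g hg 0 0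
  rw [add_zero] at h
  exact left_eq_add.1 h

theorem MM_add (hL : CL L) {l : Equiv.Perm (K × K)} (hl : l ∈ L) (v w : K × K) : MM l (v + w) = MM l v + MM l w := by
  rw [MM, MM, MM, hL.add _ (L.inv_mem hl), ← hL.add l hl]
  congr 1
  ext <;> simp

theorem MM_smul (H : FH K) (hL : CL L) {l : Equiv.Perm (K × K)} (hl : l ∈ L) {c : K} (hc : star c = c) (v : K × K) :
    MM l (c • v) = c • MM l v := by
  rw [MM, MM, inv_smul' H hL hl hc, ← klin H hL hl hc]
  congr 1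
  ext <;> simp

theorem inv_MM (l : Equiv.Perm (K × K)) (v : K × K) : l⁻¹ (MM l v) = (0, (l⁻¹ v).1) := by
  rw [MM]; exact l.symm_apply_apply _

theorem MM_eq_zero (hL : CL L) {l : Equiv.Perm (K × K)} (hl : l ∈ L) {v : K × K} (h : (l⁻¹ v).1 = 0) : MM l v = 0 := by
  rw [MM, h]; exact map_zero' hL hl

theorem ff_MM (hL : CL L) {l : Equiv.Perm (K × K)} (hl : l ∈ L) (v : K × K) :
    ff v (MM l v) = 2 * ((l⁻¹ v).1 * star (l⁻¹ v).1) := by
  have h1 := hL.sp _ (L.inv_mem hl) v (MM l v)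
  rw [← h1, inv_MM]
  simp only [ff, star_zero, zero_mul, add_zero, sub_zero]
  ring

theorem ff_CC (hL : CL L) {l : Equiv.Perm (K × K)} (hl : l ∈ L) {v w : K × K} (hv : (l⁻¹ v).1 = 0) (hw : (l⁻¹ w).1 = 0) :
    ff v w = 0 := by
  have h1 := hL.sp _ (L.inv_mem hl) v w
  rw [← h1, ff, hv, hw, star_zero, zero_mul, zero_mul, zero_mul, zero_mul, add_zero, sub_zero]

theorem apply_inv (l : Equiv.Perm (K × K)) (v : K × K) : l (l⁻¹ v) = v := l.apply_symm_apply v

theorem inv_apply (l : Equiv.Perm (K × K)) (v : K × K) : l⁻¹ (l v) = v := l.symm_apply_apply v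

/-- the elements of `l R l⁻¹` -/
theorem ry (H : FH K) (hL : CL L) {l : Equiv.Perm (K × K)} (hl : l ∈ L) {c : K} (hc : star c = c) :
    ∃ g ∈ L, ∀ v, g v = v + c • MM l v := by
  obtain ⟨x, hx, hx'⟩ := hL.rx c hc
  refine ⟨l * x * l⁻¹, L.mul_mem (L.mul_mem hl hx) (L.inv_mem hl), fun v => ?_⟩
  rw [Equiv.Perm.mul_apply, Equiv.Perm.mul_apply, hx', hL.add l hl, apply_inv, klin H hL hl hc]
  rfl

/-- an element of `L` fixing `l C` pointwise is in `l R l⁻¹` -/
theorem uy (H : FH K) (hL : CL L) {l : Equiv.Perm (K × K)} (hl : l ∈ L) {z : Equiv.Perm (K × K)} (hz : z ∈ L)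
    (h : ∀ b : K, z (l (0, b)) = l (0, b)) : ∃ c : K, star c = c ∧ ∀ v, z v = v + c • MM l v := by
  obtain ⟨c, hc, hc'⟩ := hL.u1 (l⁻¹ * z * l) (L.mul_mem (L.mul_mem (L.inv_mem hl) hz) hl) (fun b => by
    rw [Equiv.Perm.mul_apply, Equiv.Perm.mul_apply, h b, inv_apply])
  refine ⟨c, hc, fun v => ?_⟩
  have h1 := hc' (l⁻¹ v)
  rw [Equiv.Perm.mul_apply, Equiv.Perm.mul_apply, apply_inv] at h1
  have h2 := congrArg l h1
  rw [apply_inv, hL.add l hl, apply_inv, klin H hL hl hc] at h2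
  exact h2

/-- a computation: `N` and `M` act on `w₁, w'` as for `SL₂` and on `u, e` as commuting maps -/
theorem key (H : FH K) (hL : CL L) {l : Equiv.Perm (K × K)} (hl : l ∈ L) {u w₁ w' e : K × K} {lam a₁ : K}
    (hlam : star lam = lam) (hlam0 : lam ≠ 0) (ha₁ : star a₁ = a₁)
    (hu : u.1 = 0) (hw₁ : w₁ = (0, w'.1)) (he : e.1 = u.2) (hw0 : w' ≠ 0) (hu0 : u ≠ 0)
    (mu : MM l u = 0) (mw' : MM l w' = 0) (mw₁ : MM l w₁ = lam • w') (me : MM l e = a₁ • u)
    (hC : ∀ b, ∃ c₁ c₂ : K, star c₁ = c₁ ∧ star c₂ = c₂ ∧ l (0, b) = c₁ • u + c₂ • w')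
    {c : K} (hc : star c = c) (hc0 : c ≠ 0) : a₁ = - lam * (c * c) := by
  have hd : star (-(c * lam)⁻¹) = -(c * lam)⁻¹ := by
    rw [star_neg, star_inv₀, star_mul', hc, hlam]
  obtain ⟨x, hx, hx'⟩ := hL.rx c hc
  obtain ⟨x1, hx1, hx1'⟩ := hL.rx 1 (star_one _)
  obtain ⟨y, hy, hy'⟩ := ry H hL hl hd
  have nu : ((0 : K), u.1) = 0 := by rw [hu]; rfl
  have nw₁ : ((0 : K), w₁.1) = 0 := by rw [hw₁]; rfl
  have ne : ((0 : K), e.1) = u := by
    rw [he]; ext
    · exact hu.symm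
    · rfl
  -- values
  have xu : ∀ s : K, s • ((0 : K), u.1) = 0 := fun s => by rw [nu, smul_zero]
  have X : ∀ v : K × K, x v = v + c • ((0 : K), v.1) := hx'
  have nadd : ∀ v w : K × K, ((0 : K), (v + w).1) = ((0 : K), v.1) + ((0 : K), w.1) := fun v w => by
    ext <;> simp
  have nsmul : ∀ (s : K) (v : K × K), ((0 : K), (s • v).1) = s • ((0 : K), v.1) := fun s v => by
    ext <;> simp
  have n_u : (x * y * x) u = u := by
    rw [Equiv.Perm.mul_apply, Equiv.Perm.mul_apply, hx' u, nu, smul_zero, add_zero, hy' u, mu, smul_zero, add_zero, hx' u, nu,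
      smul_zero, add_zero]
  have n_w₁ : (x * y * x) w₁ = (-c⁻¹) • w' := by
    rw [Equiv.Perm.mul_apply, Equiv.Perm.mul_apply, hx' w₁, nw₁, smul_zero, add_zero, hy' w₁, mw₁, hx', nadd, nsmul, nsmul, nw₁, ← hw₁]
    match_scalars <;> field_simp <;> ring
  have n_w' : (x * y * x) w' = c • w₁ := by
    rw [Equiv.Perm.mul_apply, Equiv.Perm.mul_apply, hx' w', ← hw₁, hy' (w' + c • w₁), MM_add hL hl, MM_smul H hL hl hc, mw', mw₁, hx']
    simp only [nadd, nsmul, nw₁, ← hw₁, zero_add, add_zero, smul_zero]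
    match_scalars <;> field_simp <;> ring
  have n_e : (x * y * x) e = e + (2 * c + -(c * lam)⁻¹ * a₁) • u := by
    rw [Equiv.Perm.mul_apply, Equiv.Perm.mul_apply, hx' e, ne, hy' (e + c • u), MM_add hL hl, MM_smul H hL hl hc, mu, me, hx']
    simp only [nadd, nsmul, nu, ne, zero_add, add_zero, smul_zero]
    match_scalars <;> field_simp <;> ring
  set nn := x * y * x with hnn
  have hnnL : nn ∈ L := L.mul_mem (L.mul_mem hx hy) hx
  have z_of : ∀ a b : K × K, x1 (nn a) = nn b → (nn⁻¹ * x1 * nn) a = b := fun a b hab => by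
    rw [Equiv.Perm.mul_apply, Equiv.Perm.mul_apply, hab, inv_apply]
  have hzL : nn⁻¹ * x1 * nn ∈ L := L.mul_mem (L.mul_mem (L.inv_mem hnnL) hx1) hnnL
  have nk := fun {s : K} (hs : star s = s) (v : K × K) => klin H hL hnnL hs v
  have hcc : star (-(c⁻¹ * c⁻¹)) = -(c⁻¹ * c⁻¹) := by rw [star_neg, star_mul', star_inv₀, hc]
  have z_u := z_of u u (by rw [n_u, hx1', nu, smul_zero, add_zero])
  have z_w' := z_of w' w' (by
    rw [n_w', hx1', nsmul, nw₁, smul_zero, smul_zero, add_zero])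
  have z_w₁ := z_of w₁ (w₁ + (-(c⁻¹ * c⁻¹)) • w') (by
    rw [hL.add nn hnnL, nk hcc, n_w₁, n_w', hx1', nsmul, ← hw₁]
    match_scalars <;> field_simp)
  have z_e := z_of e (e + u) (by
    rw [hL.add nn hnnL, n_e, n_u, hx1', nadd, nsmul, nu, ne]
    match_scalars <;> ring)
  obtain ⟨s, hs, hs'⟩ := uy H hL hl hzL (fun b => by
    obtain ⟨c₁, c₂, h1, h2, h3⟩ := hC b
    rw [h3, hL.add _ hzL, klin H hL hzL h1, klin H hL hzL h2, z_u, z_w'])
  have e1 : s * lam = -(c⁻¹ * c⁻¹) := by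
    have h1 := hs' w₁
    rw [z_w₁, mw₁, smul_smul] at h1
    exact (smul_left_injective K hw0 (add_left_cancel h1)).symm
  have e2 : s * a₁ = 1 := by
    have h1 := hs' e
    rw [z_e, me, smul_smul] at h1
    have h2 : (1 : K) • u = (s * a₁) • u := by rw [one_smul]; exact add_left_cancel h1
    exact (smul_left_injective K hu0 h2).symm
  have hs0 : s ≠ 0 := fun h => by rw [h, zero_mul] at e2; exact zero_ne_one e2
  have h3 : s * (a₁ + lam * (c * c)) = 0 := by
    have h4 : s * lam * (c * c) = -1 := by rw [e1]; field_simp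
    linear_combination e2 + h4
  have h4 := (mul_eq_zero.1 h3).resolve_left hs0
  linear_combination h4

/-- (Claim 1) `C ∩ l C ≠ 0` implies `l C = C` -/
theorem meet (H : FH K) (hL : CL L) {l : Equiv.Perm (K × K)} (hl : l ∈ L) {b₀ : K} (hb₀ : b₀ ≠ 0)
    (h : (l⁻¹ (0, b₀)).1 = 0) (b : K) : (l⁻¹ (0, b)).1 = 0 := by
  by_contra hb
  have h2 := H.two
  set r₂ := (l⁻¹ (0, b)).1 with hr₂
  set w' := MM l (0, b) with hw'
  have lw' : l⁻¹ w' = (0, r₂) := inv_MM l (0, b)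
  have hw'1 : w'.1 ≠ 0 := by
    intro h1
    have h3 := ff_MM hL hl (0, b)
    rw [← hw', ← hr₂] at h3
    have h4 : ff ((0 : K), b) w' = 0 := by simp [ff, h1]
    rw [h4] at h3
    have h5 : r₂ * star r₂ ≠ 0 := mul_ne_zero hb (by simpa using hb)
    exact mul_ne_zero h2 h5 h3.symm
  have hw0 : w' ≠ 0 := fun h1 => hw'1 (by rw [h1]; rfl)
  obtain ⟨c₁, c₂, hc₁, hc₂, hc⟩ := span_two hb₀ (b := b) (fun c hc hcb => hb (by
    rw [hr₂]
    have h1 : ((0 : K), b) = c • ((0 : K), b₀) := by ext <;> simp [hcb]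
    rw [h1, inv_smul' H hL hl hc, Prod.smul_fst, h, smul_zero])) w'.1
  have hw₁ : ((0 : K), w'.1) = c₁ • ((0 : K), b₀) + c₂ • ((0 : K), b) := by
    ext <;> simp [hc]
  have mu : MM l (0, b₀) = 0 := MM_eq_zero hL hl h
  have mw' : MM l w' = 0 := MM_eq_zero hL hl (by rw [lw'])
  have mw₁ : MM l ((0 : K), w'.1) = c₂ • w' := by
    rw [hw₁, MM_add hL hl, MM_smul H hL hl hc₁, MM_smul H hL hl hc₂, mu, smul_zero, zero_add]
  have hc₂0 : c₂ ≠ 0 := by
    intro h0
    have h3 : ff w' ((0 : K), w'.1) = 2 * (w'.1 * star w'.1) := by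
      simp only [ff, star_zero, zero_mul, add_zero, sub_zero]; ring
    have h4 : ff w' ((0 : K), w'.1) = 0 := by
      rw [hw₁, h0, zero_smul, add_zero, ff_smul_right hc₁, ff_CC hL hl (by rw [lw']) h, mul_zero]
    rw [h4] at h3
    exact mul_ne_zero h2 (mul_ne_zero hw'1 (by simpa using hw'1)) h3.symm
  -- the basis of `l C`
  set b₁ := (l⁻¹ (0, b₀)).2 with hb₁
  have lu : l⁻¹ (0, b₀) = (0, b₁) := by
    ext
    · exact h
    · rfl
  have lu' : l (0, b₁) = (0, b₀) := by rw [← lu, apply_inv]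
  have lw'' : l (0, r₂) = w' := rfl
  have hb₁0 : b₁ ≠ 0 := by
    intro h1
    rw [h1] at lu'
    have h3 : l (0, 0) = 0 := map_zero' hL hl
    rw [h3] at lu'
    exact hb₀ (congrArg Prod.snd lu').symm
  have hC : ∀ b', ∃ c₁ c₂ : K, star c₁ = c₁ ∧ star c₂ = c₂ ∧ l (0, b') = c₁ • ((0 : K), b₀) + c₂ • w' := by
    intro b'
    obtain ⟨d₁, d₂, hd₁, hd₂, hd⟩ := span_two hb₁0 (b := r₂) (fun c hc hcb => hw'1 (by
      rw [← lw'', hcb]
      have h1 : ((0 : K), c * b₁) = c • ((0 : K), b₁) := by ext <;> simp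
      rw [h1, klin H hL hl hc, lu']
      simp)) b'
    refine ⟨d₁, d₂, hd₁, hd₂, ?_⟩
    have h1 : ((0 : K), b') = d₁ • ((0 : K), b₁) + d₂ • ((0 : K), r₂) := by ext <;> simp [hd]
    rw [h1, hL.add l hl, klin H hL hl hd₁, klin H hL hl hd₂, lu', lw'']
  obtain ⟨a₁, a₂, ha₁, ha₂, ha⟩ := hC (l⁻¹ (b₀, 0)).1
  have hq : star (a₂ / c₂) = a₂ / c₂ := by rw [star_div₀, ha₂, hc₂]
  have hmq : star (-(a₂ / c₂)) = -(a₂ / c₂) := by rw [star_neg, hq]
  have me : MM l (((b₀, 0) : K × K) + (-(a₂ / c₂)) • ((0 : K), w'.1)) = a₁ • ((0 : K), b₀) := by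
    rw [MM_add hL hl, MM_smul H hL hl hmq, mw₁]
    have h1 : MM l (b₀, 0) = a₁ • ((0 : K), b₀) + a₂ • w' := ha
    rw [h1]
    match_scalars <;> field_simp
    ring
  have K1 := fun {c : K} (hc : star c = c) (hc0 : c ≠ 0) =>
    key H hL hl (u := (0, b₀)) (w₁ := (0, w'.1)) (w' := w') (e := ((b₀, 0) : K × K) + (-(a₂ / c₂)) • ((0 : K), w'.1))
      (lam := c₂) (a₁ := a₁) hc₂ hc₂0 ha₁ rfl rfl (by simp) hw0 (fun h1 => hb₀ (congrArg Prod.snd h1)) mu mw' mw₁ me hC hc hc0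
  obtain ⟨c, hcs, hc0, hc1⟩ := H.c0
  have k1 := K1 hcs hc0
  have k2 := K1 (star_one K) one_ne_zero
  apply hc1
  have h5 : c₂ * (c * c - 1) = 0 := by linear_combination k1 - k2
  have := (mul_eq_zero.1 h5).resolve_left hc₂0
  linear_combination this

end Cfsg.Agent.H859.P4
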