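import Cfsg.Agent.H859.P4.Core

/-!
# S5210, Q1 for odd `p`: the core, part 2 (helper859)

The conjugates of `C` different from `C` are the graphs of `α`, `α ∈ k`.
-/

set_option autoImplicit false

namespace Cfsg.Agent.H859.P4

universe u

variable {K : Type u} [Field K] [StarRing K] {L : Subgroup (Equiv.Perm (K × K))}

/-- `l C` lies in the graph of `α + κ star` -/
def Gr (l : Equiv.Perm (K × K)) (α κ : K) : Prop :=
  ∀ b : K, (l (0, b)).2 = α * (l (0, b)).1 + κ * star (l (0, b)).1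

/-- the points -/
def PP (L : Subgroup (Equiv.Perm (K × K))) : Set K := {κ | ∃ l ∈ L, ∃ α, star α = α ∧ Gr l α κ}

theorem lsub (H : FH K) (hL : CL L) {g : Equiv.Perm (K × K)} (hg : g ∈ L) (v w : K × K) : g (v - w) = g v - g w := by
  have h1 : v - w = v + (-1 : K) • w := by rw [neg_one_smul, sub_eq_add_neg]
  rw [h1, hL.add g hg, klin H hL hg (by simp), neg_one_smul, ← sub_eq_add_neg]

theorem pair_eq_zero (H : FH K) (hL : CL L) {g : Equiv.Perm (K × K)} (hg : g ∈ L) {v : K × K} (h : g v = 0) : v = 0 :=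
  g.injective (by rw [h, map_zero' hL hg])

theorem alt (H : FH K) (hL : CL L) {l : Equiv.Perm (K × K)} (hl : l ∈ L) :
    (∀ b : K, (l (0, b)).1 = 0) ∨ ∀ b : K, (l (0, b)).1 = 0 → b = 0 := by
  by_contra hcon
  push Not at hcon
  obtain ⟨⟨b', hb'⟩, b, hb, hb0⟩ := hcon
  refine hb' ?_
  have h1 := meet H hL (L.inv_mem hl) hb0 (by rw [inv_inv]; exact hb) b'
  rwa [inv_inv] at h1

theorem fst_surj (H : FH K) (hL : CL L) {l : Equiv.Perm (K × K)} (hl : l ∈ L)
    (h : ∀ b : K, (l (0, b)).1 = 0 → b = 0) (r : K) : ∃ b : K, (l (0, b)).1 = r := by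
  have := H.fin
  have hinj : Function.Injective (fun b : K => (l (0, b)).1) := by
    intro b b' hbb
    have h1 : (l (0, b - b')).1 = 0 := by
      have h2 : ((0 : K), b - b') = (0, b) - (0, b') := by ext <;> simp
      rw [h2, lsub H hL hl, Prod.fst_sub]
      exact sub_eq_zero.2 hbb
    exact sub_eq_zero.1 (h _ h1)
  exact (Finite.injective_iff_surjective.1 hinj) r

/-- symmetric operators -/
theorem symop (H : FH K) (φ : K → K) (hadd : ∀ x y, φ (x + y) = φ x + φ y)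
    (hmul : ∀ c x, star c = c → φ (c * x) = c * φ x)
    (hs : ∀ r r', r * star (φ r') + star r * φ r' = r' * star (φ r) + star r' * φ r) :
    ∃ α κ : K, star α = α ∧ ∀ r, φ r = α * r + κ * star r := by
  obtain ⟨ω, hω0, hω⟩ := H.om
  have h2 := H.two
  have hωs : star ω ≠ ω := by
    intro h
    rw [hω] at h
    exact hω0 ((mul_eq_zero.1 (by linear_combination -h : (2 : K) * ω = 0)).resolve_left h2)
  have hs1 := hs 1 ω
  rw [star_one, hω] at hs1
  refine ⟨(φ 1 + φ ω / ω) / 2, (φ 1 - φ ω / ω) / 2, ?_, fun r => ?_⟩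
  · rw [star_div₀, star_add, star_div₀, hω]
    have h3 : star (2 : K) = 2 := by
      have : (2 : K) = 1 + 1 := by norm_num
      rw [this, star_add, star_one]
    rw [h3]
    field_simp
    linear_combination -hs1
  · obtain ⟨c₁, c₂, h3, h4, h5⟩ := span_k hωs r
    have h6 : φ r = c₁ * φ 1 + c₂ * φ ω := by
      rw [h5, hadd, hmul c₂ ω h4]
      congr 1
      have := hmul c₁ 1 h3
      rwa [mul_one] at this
    have h7 : star r = c₁ - c₂ * ω := by
      rw [h5, star_add, star_mul', h3, h4, hω]; ring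
    rw [h6, h7, h5]
    field_simp
    ring

theorem graph (H : FH K) (hL : CL L) {l : Equiv.Perm (K × K)} (hl : l ∈ L)
    (h : ∀ b : K, (l (0, b)).1 = 0 → b = 0) : ∃ α κ : K, star α = α ∧ Gr l α κ := by
  choose g hg using fst_surj H hL hl h
  have hgi : ∀ b, g (l (0, b)).1 = b := by
    intro b
    have h1 : (l (0, g (l (0, b)).1 - b)).1 = 0 := by
      have h2 : ((0 : K), g (l (0, b)).1 - b) = (0, g (l (0, b)).1) - (0, b) := by ext <;> simp
      rw [h2, lsub H hL hl, Prod.fst_sub, hg]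
      exact sub_self _
    exact sub_eq_zero.1 (h _ h1)
  have hgadd : ∀ x y, g (x + y) = g x + g y := by
    intro x y
    rw [← hgi (g x + g y)]
    congr 1
    have h2 : ((0 : K), g x + g y) = (0, g x) + (0, g y) := by ext <;> simp
    rw [h2, hL.add l hl, Prod.fst_add, hg, hg]
  have hgmul : ∀ c x, star c = c → g (c * x) = c * g x := by
    intro c x hc
    rw [← hgi (c * g x)]
    congr 1
    have h2 : ((0 : K), c * g x) = c • (0, g x) := by ext <;> simp
    rw [h2, klin H hL hl hc, Prod.smul_fst, hg, smul_eq_mul]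
  obtain ⟨α, κ, h1, h2⟩ := symop H (fun r => (l (0, g r)).2)
    (fun x y => by
      have h2 : ((0 : K), g x + g y) = (0, g x) + (0, g y) := by ext <;> simp
      rw [hgadd, h2, hL.add l hl, Prod.snd_add])
    (fun c x hc => by
      have h2 : ((0 : K), c * g x) = c • (0, g x) := by ext <;> simp
      rw [hgmul c x hc, h2, klin H hL hl hc, Prod.smul_snd, smul_eq_mul])
    (fun r r' => by
      have h3 := hL.sp l hl (0, g r) (0, g r')
      rw [ff, hg, hg] at h3
      have h4 : ff ((0 : K), g r) (0, g r') = 0 := by simp [ff]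
      rw [h4] at h3
      linear_combination h3)
  refine ⟨α, κ, h1, fun b => ?_⟩
  have h3 := h2 (l (0, b)).1
  simp only [hgi] at h3
  exact h3

/-- `α + κ star` is zero somewhere if its determinant is zero -/
theorem det_zero (H : FH K) {α κ : K} (hα : star α = α) (h : α * α = κ * star κ) :
    ∃ r : K, r ≠ 0 ∧ α * r + κ * star r = 0 := by
  obtain ⟨ω, hω0, hω⟩ := H.om
  have h2 := H.two
  have hz : ∀ z : K, α * (κ * star z - α * z) + κ * star (κ * star z - α * z) = 0 := by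
    intro z
    rw [star_sub, star_mul', star_mul', star_star, hα]
    linear_combination -z * h
  by_cases h1 : κ - α = 0
  · by_cases h3 : -(κ + α) * ω = 0
    · have h4 : κ + α = 0 := neg_eq_zero.1 ((mul_eq_zero.1 h3).resolve_right hω0)
      have h5 : κ = 0 := (mul_eq_zero.1 (by linear_combination h1 + h4 : (2 : K) * κ = 0)).resolve_left h2
      have h6 : α = 0 := by linear_combination h4 - h5
      exact ⟨1, one_ne_zero, by rw [h5, h6]; simp⟩
    · refine ⟨κ * star ω - α * ω, ?_, hz ω⟩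
      intro h4
      rw [hω] at h4
      exact h3 (by linear_combination h4)
  · refine ⟨κ * star 1 - α * 1, ?_, hz 1⟩
    rw [star_one, mul_one, mul_one]
    exact h1

theorem Gr.inj (H : FH K) (hL : CL L) {l : Equiv.Perm (K × K)} (hl : l ∈ L) {α κ : K} (h : Gr l α κ) (b : K)
    (hb : (l (0, b)).1 = 0) : b = 0 := by
  have h1 : l (0, b) = 0 := by
    ext
    · exact hb
    · rw [h b, hb, star_zero]; simp
  exact congrArg Prod.snd (pair_eq_zero H hL hl h1)

theorem Gr.mem (H : FH K) (hL : CL L) {l : Equiv.Perm (K × K)} (hl : l ∈ L) {α κ : K} (h : Gr l α κ) (r : K) :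
    ∃ b : K, l (0, b) = (r, α * r + κ * star r) := by
  obtain ⟨b, hb⟩ := fst_surj H hL hl (Gr.inj H hL hl h) r
  refine ⟨b, ?_⟩
  ext
  · exact hb
  · rw [h b, hb]

/-- shift by `R` -/
theorem PP_shift (hL : CL L) {κ : K} (h : κ ∈ PP L) {α : K} (hα : star α = α) : ∃ l ∈ L, Gr l α κ := by
  obtain ⟨l, hl, α', hα', h1⟩ := h
  obtain ⟨x, hx, hx'⟩ := hL.rx (α - α') (by rw [star_sub, hα, hα'])
  refine ⟨x * l, L.mul_mem hx hl, fun b => ?_⟩
  rw [Equiv.Perm.mul_apply, hx']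
  simp only [Prod.fst_add, Prod.snd_add, Prod.smul_fst, Prod.smul_snd, smul_eq_mul, mul_zero, add_zero]
  rw [h1 b]
  ring

/-- the torus -/
theorem PP_tor (hL : CL L) {κ : K} (h : κ ∈ PP L) {t : K} (ht : t ≠ 0) : t * (star t * star t * star t)⁻¹ * κ ∈ PP L := by
  obtain ⟨l, hl, α, hα, h1⟩ := h
  obtain ⟨g, hg, hg'⟩ := hL.tor t ht l hl
  have ht' : star t ≠ 0 := by simpa using ht
  refine ⟨g, hg, (t * star t)⁻¹ * α, by rw [star_mul', star_inv₀, star_mul', star_star, hα, mul_comm t], fun b => ?_⟩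
  have h2 := hg' (0, (t * t * (t * star t)⁻¹)⁻¹ * b)
  have h3 : (t * t * ((0 : K), (t * t * (t * star t)⁻¹)⁻¹ * b).1,
      t * t * (t * star t)⁻¹ * ((0 : K), (t * t * (t * star t)⁻¹)⁻¹ * b).2) = ((0 : K), b) := by
    ext
    · simp
    · simp only
      field_simp
  rw [h3] at h2
  rw [h2]
  simp only
  rw [h1, star_mul', star_mul']
  field_simp

/-- two graphs meeting nontrivially are equal: norms of differences are nonsquares -/
theorem PP_norm (H : FH K) (hL : CL L) {κ₁ κ₂ : K} (h₁ : κ₁ ∈ PP L) (h₂ : κ₂ ∈ PP L) (hne : κ₁ ≠ κ₂) {α : K}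
    (hα : star α = α) : α * α ≠ (κ₁ - κ₂) * star (κ₁ - κ₂) := by
  intro h
  obtain ⟨r, hr, hr'⟩ := det_zero H hα h
  obtain ⟨l₁, hl₁, g₁⟩ := PP_shift hL h₁ hα
  obtain ⟨l₂, hl₂, g₂⟩ := PP_shift hL h₂ (star_zero K)
  obtain ⟨b₁, hb₁⟩ := g₁.mem H hL hl₁ r
  obtain ⟨b₂, hb₂⟩ := g₂.mem H hL hl₂ r
  have heq : l₁ (0, b₁) = l₂ (0, b₂) := by
    rw [hb₁, hb₂]
    congr 1
    linear_combination hr'
  have hb₁0 : b₁ ≠ 0 := by
    rintro rfl
    have h3 : l₁ (0, 0) = 0 := map_zero' hL hl₁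
    rw [h3] at hb₁
    exact hr (congrArg Prod.fst hb₁).symm
  have hm := meet H hL (L.mul_mem (L.inv_mem hl₁) hl₂) hb₁0 (by
    have h3 : (l₁⁻¹ * l₂)⁻¹ ((0 : K), b₁) = (0, b₂) := by
      rw [mul_inv_rev, inv_inv, Equiv.Perm.mul_apply, heq, inv_apply]
    rw [h3])
  -- `l₁ (0, b)` lies in the graph of `κ₂ star`
  have hin : ∀ b, (l₁ (0, b)).2 = 0 * (l₁ (0, b)).1 + κ₂ * star (l₁ (0, b)).1 := by
    intro b
    have h3 := hm b
    rw [mul_inv_rev, inv_inv, Equiv.Perm.mul_apply] at h3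
    have h4 : l₁ (0, b) = l₂ (0, (l₂⁻¹ (l₁ (0, b))).2) := by
      have h5 : ((0 : K), (l₂⁻¹ (l₁ (0, b))).2) = l₂⁻¹ (l₁ (0, b)) := by
        ext
        · exact h3.symm
        · rfl
      rw [h5, apply_inv]
    rw [h4]
    exact g₂ _
  have hall : ∀ r : K, α * r + κ₁ * star r = κ₂ * star r := by
    intro r
    obtain ⟨b, hb⟩ := g₁.mem H hL hl₁ r
    have h3 := hin b
    rw [hb] at h3
    simp only [zero_mul, zero_add] at h3
    exact h3
  obtain ⟨ω, hω0, hω⟩ := H.om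
  have h5 := hall 1
  have h6 := hall ω
  rw [star_one] at h5
  rw [hω] at h6
  have h7 : (α - κ₁ + κ₂) * ω = 0 := by linear_combination h6
  have h8 := (mul_eq_zero.1 h7).resolve_right hω0
  have h9 : (2 : K) * (κ₁ - κ₂) = 0 := by linear_combination h5 - h8
  exact hne (sub_eq_zero.1 ((mul_eq_zero.1 h9).resolve_left H.two))

theorem ff_MM_symm (hL : CL L) {l : Equiv.Perm (K × K)} (hl : l ∈ L) (v w : K × K) :
    ff v (MM l w) = ff w (MM l v) := by
  rw [← hL.sp _ (L.inv_mem hl) v (MM l w), ← hL.sp _ (L.inv_mem hl) w (MM l v), inv_MM, inv_MM]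
  simp only [ff, star_zero, zero_mul, add_zero, sub_zero, mul_zero]
  ring

/-- the action of `l R l⁻¹` on `C` -/
theorem exists_B (H : FH K) (hL : CL L) {l : Equiv.Perm (K × K)} (hl : l ∈ L) {α κ : K} (hα : star α = α)
    (h : Gr l α κ) : ∃ β κB : K, star β = β ∧ β * β - κB * star κB ≠ 0 ∧
      (∀ b : K, (MM l (0, b)).1 = β * b + κB * star b) ∧ ∀ c, star c = c → κ + c * κB ∈ PP L := by
  have hmul : ∀ c x : K, star c = c → (MM l (0, c * x)).1 = c * (MM l (0, x)).1 := by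
    intro c x hc
    have h2 : ((0 : K), c * x) = c • (0, x) := by ext <;> simp
    rw [h2, MM_smul H hL hl hc, Prod.smul_fst, smul_eq_mul]
  obtain ⟨β, κB, hβ, hB⟩ := symop H (fun b => (MM l (0, b)).1)
    (fun x y => by
      have h2 : ((0 : K), x + y) = (0, x) + (0, y) := by ext <;> simp
      rw [h2, MM_add hL hl, Prod.fst_add])
    (fun c x hc => hmul c x hc)
    (fun r r' => by
      have h3 := ff_MM_symm hL hl (0, r) (0, r')
      simp only [ff, star_zero, zero_mul, zero_add, zero_sub] at h3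
      linear_combination -h3)
  -- the value of `MM` lies in the graph
  have hin : ∀ v, (MM l v).2 = α * (MM l v).1 + κ * star (MM l v).1 := fun v => h _
  have hB0 : ∀ b : K, (MM l (0, b)).1 = 0 → b = 0 := by
    intro b hb
    have h1 : MM l (0, b) = 0 := by
      ext
      · exact hb
      · rw [hin, hb, star_zero]; simp
    have h2 := pair_eq_zero H hL hl h1
    have h3 : (l⁻¹ (0, b)).1 = 0 := congrArg Prod.snd h2
    have h4 : l⁻¹ (0, b) = (0, (l⁻¹ (0, b)).2) := by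
      ext
      · exact h3
      · rfl
    have h5 : l (0, (l⁻¹ (0, b)).2) = (0, b) := by rw [← h4, apply_inv]
    have h6 := h (l⁻¹ (0, b)).2
    rw [h5] at h6
    simpa using h6
  have hD : β * β - κB * star κB ≠ 0 := by
    intro h0
    obtain ⟨r, hr, hr'⟩ := det_zero H hβ (sub_eq_zero.1 h0)
    exact hr (hB0 r ((hB r).trans hr'))
  have hDs : star (β * β - κB * star κB) = β * β - κB * star κB := by
    rw [star_sub, star_mul', star_mul', star_star, hβ, mul_comm (star κB)]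
  refine ⟨β, κB, hβ, hD, hB, fun c' hc' => ?_⟩
  rcases eq_or_ne c' 0 with rfl | hc0
  · rw [zero_mul, add_zero]
    exact ⟨l, hl, α, hα, h⟩
  set D := β * β - κB * star κB with hDd
  obtain ⟨y, hy, hy'⟩ := ry H hL hl (c := -(c' * D)⁻¹) (by rw [star_neg, star_inv₀, star_mul', hDs, hc'])
  refine ⟨y, hy, α - c' * β, by rw [star_sub, star_mul', hα, hβ, hc'], fun b => ?_⟩
  rw [hy']
  simp only [Prod.fst_add, Prod.snd_add, Prod.smul_fst, Prod.smul_snd, smul_eq_mul, zero_add]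
  rw [hin (0, b)]
  have hBb : (MM l (0, b)).1 = β * b + κB * star b := hB b
  have h3 : star (-(c' * D)⁻¹ * (MM l (0, b)).1) = -(c' * D)⁻¹ * star (MM l (0, b)).1 := by
    rw [star_mul', star_neg, star_inv₀, star_mul', hDs, hc']
  have h4 : star (MM l (0, b)).1 = β * star b + star κB * b := by
    rw [hBb, star_add, star_mul', star_mul', star_star, hβ]
  rw [h3, h4, hBb]
  have h5 : (c' * D)⁻¹ * c' * D = 1 := by field_simp
  linear_combination (-b) * h5 + (c' * D)⁻¹ * c' * b * hDd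

theorem tU (H : FH K) : ∃ t : K, t ≠ 0 ∧ star (t * (star t * star t * star t)⁻¹) ≠ t * (star t * star t * star t)⁻¹ := by
  obtain ⟨t, ht, ht4⟩ := H.t0
  have ht' : star t ≠ 0 := by simpa using ht
  refine ⟨t, ht, fun h => ht4 ?_⟩
  rw [star_mul', star_inv₀, star_mul', star_mul', star_star, ← div_eq_mul_inv, ← div_eq_mul_inv,
    div_eq_div_iff (mul_ne_zero (mul_ne_zero ht ht) ht) (mul_ne_zero (mul_ne_zero ht' ht') ht')] at h
  linear_combination h

/-- there is no line in `PP` -/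
theorem no_line (H : FH K) (hL : CL L) {κ δ : K} (h : ∀ c, star c = c → κ + c * δ ∈ PP L) : δ = 0 := by
  by_contra hδ
  obtain ⟨t, ht, htU⟩ := tU H
  set U := t * (star t * star t * star t)⁻¹ with hU
  obtain ⟨d₁, d₂, hd₁, hd₂, hd⟩ := span_k htU ((1 - κ + U * κ) / δ)
  have h1 := h d₁ hd₁
  have h2 := PP_tor hL (h (-d₂) (by rw [star_neg, hd₂])) ht
  rw [← hU] at h2
  have h3 : κ + d₁ * δ - U * (κ + -d₂ * δ) = 1 := by
    have h4 : (1 - κ + U * κ) = (d₁ + d₂ * U) * δ := by rw [← hd]; field_simp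
    linear_combination -h4
  refine PP_norm H hL h1 h2 (fun h4 => ?_) (star_one K) ?_
  · rw [h4, sub_self] at h3
    exact zero_ne_one h3
  · rw [h3, star_one]

/-- the full group `l R l⁻¹` -/
theorem std (H : FH K) (hL : CL L) {l : Equiv.Perm (K × K)} (hl : l ∈ L) {α κ : K} (hα : star α = α)
    (h : Gr l α κ) {c : K} (hc : star c = c) : ∃ g ∈ L, ∀ v : K × K,
      g v = (v.1 + c * (v.2 - (α * v.1 + κ * star v.1)),
        v.2 + c * (α * (v.2 - (α * v.1 + κ * star v.1)) + κ * star (v.2 - (α * v.1 + κ * star v.1)))) := by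
  obtain ⟨β, κB, hβ, hD, hB, hline⟩ := exists_B H hL hl hα h
  have hκB := no_line H hL hline
  rw [hκB, zero_mul, sub_zero] at hD
  have hβ0 : β ≠ 0 := fun h0 => hD (by rw [h0, zero_mul])
  obtain ⟨g, hg, hg'⟩ := ry H hL hl (c := c * β⁻¹) (by rw [star_mul', star_inv₀, hc, hβ])
  refine ⟨g, hg, fun v => ?_⟩
  rw [hg']
  obtain ⟨b, hb⟩ := h.mem H hL hl v.1
  have h1 : v = l (0, b) + (0, v.2 - (α * v.1 + κ * star v.1)) := by
    rw [hb]; ext <;> simp
  have h2 : MM l v = MM l (0, v.2 - (α * v.1 + κ * star v.1)) := by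
    conv_lhs => rw [h1]
    rw [MM_add hL hl, MM_eq_zero hL hl (by rw [inv_apply]), zero_add]
  rw [h2]
  set s := v.2 - (α * v.1 + κ * star v.1) with hs
  have h3 : (MM l (0, s)).1 = β * s := by rw [hB, hκB]; ring
  have h4 : (MM l (0, s)).2 = α * (β * s) + κ * star (β * s) := by
    have : (MM l (0, s)).2 = α * (MM l (0, s)).1 + κ * star (MM l (0, s)).1 := h _
    rw [this, h3]
  ext
  · simp only [Prod.fst_add, Prod.smul_fst, smul_eq_mul]
    rw [h3]; field_simp
  · simp only [Prod.snd_add, Prod.smul_snd, smul_eq_mul]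
    rw [h4, star_mul', hβ]; field_simp

theorem PP_step (H : FH K) (hL : CL L) {κ₁ κ₂ : K} (h₁ : κ₁ ∈ PP L) (h₂ : κ₂ ∈ PP L) (hne : κ₁ ≠ κ₂) {α : K}
    (hα : star α = α) :
    κ₂ + (1 - α * α / ((κ₁ - κ₂) * star (κ₁ - κ₂))) * (κ₁ - κ₂) ∈ PP L := by
  have hn := PP_norm H hL h₁ h₂ hne hα
  have hδ : κ₁ - κ₂ ≠ 0 := sub_ne_zero.2 hne
  have hδ' : star (κ₁ - κ₂) ≠ 0 := star_ne_zero.2 hδ
  obtain ⟨l₁, hl₁, g₁⟩ := PP_shift hL h₁ hα
  obtain ⟨l₂, hl₂, g₂⟩ := PP_shift hL h₂ (star_zero K)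
  set δ := κ₁ - κ₂ with hδd
  have hd : δ * star δ - α * α ≠ 0 := sub_ne_zero.2 hn.symm
  have hds : star (δ * star δ - α * α) = δ * star δ - α * α := by
    rw [star_sub, star_mul', star_mul', star_star, hα, mul_comm (star δ)]
  set d := δ * star δ - α * α with hdd
  have hc : star (α / d) = α / d := by rw [star_div₀, hα, hds]
  obtain ⟨g, hg, hg'⟩ := std H hL hl₂ (star_zero K) g₂ hc
  refine ⟨g * l₁, L.mul_mem hg hl₁, 0, star_zero K, fun b => ?_⟩
  rw [Equiv.Perm.mul_apply, hg']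
  simp only
  rw [g₁ b]
  set X := (l₁ (0, b)).1
  have hκ : κ₁ = κ₂ + δ := by rw [hδd]; ring
  have hs : star (α * X + κ₁ * star X - (0 * X + κ₂ * star X)) = α * star X + star δ * X := by
    have : α * X + κ₁ * star X - (0 * X + κ₂ * star X) = α * X + δ * star X := by rw [hκ]; ring
    rw [this, star_add, star_mul', star_mul', star_star, hα]
  rw [hs, star_add, star_mul' (α / d), hc, hs]
  have e1 : 1 - α * α / (δ * star δ) = d / (δ * star δ) := by rw [hdd]; field_simp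
  rw [e1, hκ]
  field_simp
  ring

/-- the whole line through two points -/
theorem PP_line (H : FH K) (hL : CL L) {κ₁ κ₂ : K} (h₁ : κ₁ ∈ PP L) (h₂ : κ₂ ∈ PP L) (hne : κ₁ ≠ κ₂) {c : K}
    (hc : star c = c) : κ₂ + c * (κ₁ - κ₂) ∈ PP L := by
  -- the nonsquare multiples
  have step : ∀ {κ₁ κ₂ : K}, κ₁ ∈ PP L → κ₂ ∈ PP L → κ₁ ≠ κ₂ → ∀ s : K, star s = s →
      κ₂ + (κ₁ - κ₂) * star (κ₁ - κ₂) * (s * s) * (κ₁ - κ₂) ∈ PP L := by
    intro κ₁ κ₂ h₁ h₂ hne s hs
    have hδ : κ₁ - κ₂ ≠ 0 := sub_ne_zero.2 hne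
    have hδ' : star (κ₁ - κ₂) ≠ 0 := star_ne_zero.2 hδ
    have hν : star ((κ₁ - κ₂) * star (κ₁ - κ₂)) = (κ₁ - κ₂) * star (κ₁ - κ₂) := by
      rw [star_mul', star_star, mul_comm]
    have h := PP_step H hL h₂ h₁ hne.symm (α := (κ₁ - κ₂) * star (κ₁ - κ₂) * s) (by rw [star_mul', hν, hs])
    convert h using 1
    have h5 : κ₂ - κ₁ = -(κ₁ - κ₂) := by ring
    rw [h5, star_neg]
    set δ := κ₁ - κ₂ with hδd
    have h6 : κ₂ = κ₁ - δ := by rw [hδd]; ring
    rw [h6]
    field_simp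
    ring
  have hδ : κ₁ - κ₂ ≠ 0 := sub_ne_zero.2 hne
  have hδ' : star (κ₁ - κ₂) ≠ 0 := star_ne_zero.2 hδ
  have hν : star ((κ₁ - κ₂) * star (κ₁ - κ₂)) = (κ₁ - κ₂) * star (κ₁ - κ₂) := by
    rw [star_mul', star_star, mul_comm]
  obtain ⟨x, hx, hx'⟩ := H.sq _ c hν hc (fun x hx hx' => PP_norm H hL h₁ h₂ hne hx hx')
  rcases hx' with rfl | rfl
  · -- squares: two steps
    have h3 := step h₁ h₂ hne 1 (star_one K)
    set δ := κ₁ - κ₂ with hδd
    set ν := δ * star δ with hνd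
    have hν0 : ν ≠ 0 := mul_ne_zero hδ hδ'
    have hne' : κ₂ + ν * (1 * 1) * δ ≠ κ₂ := by
      intro h4
      have h5 : ν * (1 * 1) * δ = 0 := by linear_combination h4
      rw [one_mul, mul_one] at h5
      exact mul_ne_zero hν0 hδ h5
    have h4 := step h3 h₂ hne' (x / (ν * ν)) (by rw [star_div₀, star_mul', hν, hx])
    convert h4 using 1
    have h5 : κ₂ + ν * (1 * 1) * δ - κ₂ = ν * δ := by ring
    rw [h5, star_mul', hν]
    have h6 : ν * δ * (ν * star δ) = ν * ν * ν := by rw [hνd]; ring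
    rw [h6]
    field_simp
  · exact step h₁ h₂ hne x hx

theorem PP_zero (H : FH K) (hL : CL L) {κ : K} (h : κ ∈ PP L) : κ = 0 := by
  obtain ⟨t, ht, htU⟩ := tU H
  have h1 := PP_tor hL h ht
  by_contra hκ
  have h2 : t * (star t * star t * star t)⁻¹ * κ ≠ κ := by
    intro h3
    have h4 : t * (star t * star t * star t)⁻¹ = 1 := mul_right_cancel₀ hκ (by rw [h3, one_mul])
    rw [h4] at htU
    exact htU (star_one K)
  have h3 := no_line H hL (κ := κ) (δ := t * (star t * star t * star t)⁻¹ * κ - κ)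
    (fun c hc => PP_line H hL h1 h h2 hc)
  exact h2 (sub_eq_zero.1 h3)

/-- the main result of the core -/
theorem core (H : FH K) (hL : CL L) {l : Equiv.Perm (K × K)} (hl : l ∈ L) {b : K} (hb : (l (0, b)).1 ≠ 0) :
    (∀ c, star c = c → ∃ g ∈ L, ∀ v : K × K, g v = (v.1 + c * v.2, v.2)) ∧
    ∀ l' ∈ L, (∀ b : K, (l' (0, b)).1 = 0) ∨ ∃ α : K, star α = α ∧ ∀ b : K, (l' (0, b)).2 = α * (l' (0, b)).1 := by
  have hP : ∀ l' ∈ L, (∀ b : K, (l' (0, b)).1 = 0) ∨ ∃ α : K, star α = α ∧ Gr l' α 0 := by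
    intro l' hl'
    rcases alt H hL hl' with h1 | h1
    · exact Or.inl h1
    · obtain ⟨α, κ, hα, h2⟩ := graph H hL hl' h1
      have h3 := PP_zero H hL (κ := κ) ⟨l', hl', α, hα, h2⟩
      rw [h3] at h2
      exact Or.inr ⟨α, hα, h2⟩
  constructor
  · rcases hP l hl with h1 | ⟨α, hα, h1⟩
    · exact absurd (h1 b) hb
    · obtain ⟨l₀, hl₀, g₀⟩ := PP_shift hL (κ := 0) ⟨l, hl, α, hα, h1⟩ (star_zero K)
      intro c hc
      obtain ⟨g, hg, hg'⟩ := std H hL hl₀ (star_zero K) g₀ hc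
      refine ⟨g, hg, fun v => ?_⟩
      rw [hg']
      simp
  · intro l' hl'
    rcases hP l' hl' with h1 | ⟨α, hα, h1⟩
    · exact Or.inl h1
    · refine Or.inr ⟨α, hα, fun b => ?_⟩
      have h2 := h1 b
      rwa [zero_mul, add_zero] at h2

end Cfsg.Agent.H859.P4
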