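import Cfsg.Agent.H756.PU.Stmts

/-!
# S5210, Q1 for odd `p`: facts on the field (helper859)
-/

set_option autoImplicit false

namespace Cfsg.Agent.H859.P4

open Cfsg.Agent.H756.PU (HypK)

universe u

/-- the facts on the field which are needed -/
structure FH (K : Type u) [Field K] [StarRing K] : Prop where
  two : (2 : K) ≠ 0
  fin : Finite K
  om : ∃ ω : K, ω ≠ 0 ∧ star ω = -ω
  c0 : ∃ c : K, star c = c ∧ c ≠ 0 ∧ c * c ≠ 1
  t0 : ∃ t : K, t ≠ 0 ∧ star t * star t * (star t * star t) ≠ t * t * (t * t)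
  sq : ∀ ν c : K, star ν = ν → star c = c → (∀ x, star x = x → x * x ≠ ν) →
    ∃ x, star x = x ∧ (c = x * x ∨ c = ν * (x * x))

section
variable {K : Type u} [Field K] [StarRing K] {p n : ℕ}

theorem fh (h : HypK K p n) (hp : p ≠ 2) (hq : 3 < p ^ n) : FH K := by
  have := h.fin
  have hpp := h.pp
  have := h.char
  have htwo : (2 : K) ≠ 0 := by
    intro h2
    have h3 : ((2 : ℕ) : K) = 0 := by exact_mod_cast h2
    rw [CharP.cast_eq_zero_iff K p 2] at h3
    exact hp ((Nat.prime_dvd_prime_iff_eq hpp Nat.prime_two).1 h3)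
  set q := p ^ n with hqd
  obtain ⟨g, hg⟩ := IsCyclic.exists_generator (α := Kˣ)
  have hog : orderOf g = q ^ 2 - 1 := by
    rw [orderOf_eq_card_of_forall_mem_zpowers hg, Nat.card_units, h.card]
  have hq2 : q ^ 2 - 1 = (q + 1) * (q - 1) := by
    obtain ⟨m, hm⟩ : ∃ m, q = m + 1 := ⟨q - 1, by omega⟩
    rw [hm]
    have : (m + 1) ^ 2 = (m + 1 + 1) * (m + 1 - 1) + 1 := by
      rw [Nat.add_sub_cancel]; ring
    rw [this, Nat.add_sub_cancel]
  have hkey : ∀ i : ℕ, g ^ i = 1 ↔ (q + 1) * (q - 1) ∣ i := by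
    intro i
    rw [← orderOf_dvd_iff_pow_eq_one, hog, hq2]
  have hstar : ∀ x : K, star x = x ^ q := h.star_eq
  have hgq : g ^ ((q + 1) * q) = g ^ (q + 1) := by
    have h1 : (q + 1) * q = (q + 1) * (q - 1) + (q + 1) := by
      obtain ⟨m, hm⟩ : ∃ m, q = m + 1 := ⟨q - 1, by omega⟩
      rw [hm, Nat.add_sub_cancel]; ring
    rw [h1, pow_add, (hkey _).2 (dvd_refl _), one_mul]
  set ε : K := ((g ^ (q + 1) : Kˣ) : K) with hε
  have hεs : star ε = ε := by
    rw [hstar, hε, ← Units.val_pow_eq_pow_val, ← pow_mul, hgq]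
  have hε0 : ε ≠ 0 := Units.ne_zero _
  -- `k` is generated by `ε`
  have hk : ∀ c : K, star c = c → c ≠ 0 → ∃ j : ℕ, c = ε ^ j := by
    intro c hc hc0
    obtain ⟨i, hi⟩ := (Submonoid.mem_powers_iff _ _).1 (mem_powers_iff_mem_zpowers.2 (hg (Units.mk0 c hc0)))
    have h1 : g ^ (i * q) = g ^ i := by
      rw [pow_mul, hi]
      ext
      rw [Units.val_pow_eq_pow_val, Units.val_mk0, ← hstar, hc]
    have h2 : g ^ (i * (q - 1)) = 1 := by
      have h3 : i * q = i * (q - 1) + i := by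
        obtain ⟨m, hm⟩ : ∃ m, q = m + 1 := ⟨q - 1, by omega⟩
        rw [hm, Nat.add_sub_cancel]; ring
      rw [h3, pow_add] at h1
      exact mul_eq_right.1 h1
    rw [hkey] at h2
    obtain ⟨j, hj⟩ := Nat.dvd_of_mul_dvd_mul_right (by omega) h2
    refine ⟨j, ?_⟩
    rw [hε, ← Units.val_pow_eq_pow_val, ← pow_mul, ← hj, hi, Units.val_mk0]
  have hεp : ∀ j : ℕ, star (ε ^ j) = ε ^ j := fun j => by rw [star_pow, hεs]
  refine ⟨htwo, inferInstance, ?_, ⟨ε, hεs, hε0, ?_⟩, ⟨(g : K), g.ne_zero, ?_⟩, ?_⟩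
  · refine ⟨(g : K) - star (g : K), ?_, by rw [star_sub, star_star]; ring⟩
    intro h1
    have h2 : (g : K) ^ q = g := by rw [← hstar]; linear_combination -h1
    have h3 : g ^ q = g := Units.ext (by rw [Units.val_pow_eq_pow_val, h2])
    have h4 : g ^ (q - 1) = 1 := by
      have h5 : q = (q - 1) + 1 := by omega
      rw [h5, pow_succ] at h3
      exact mul_eq_right.1 h3
    rw [hkey] at h4
    have h5 : q + 1 ∣ 1 := Nat.dvd_of_mul_dvd_mul_right (k := q - 1) (by omega) (by rw [one_mul]; exact h4)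
    have := Nat.le_of_dvd one_pos h5
    omega
  · intro h1
    have h2 : g ^ ((q + 1) * 2) = 1 := Units.ext (by
      rw [pow_mul, Units.val_pow_eq_pow_val, ← hε, pow_two, h1, Units.val_one])
    rw [hkey] at h2
    have := Nat.le_of_dvd (by omega) (Nat.dvd_of_mul_dvd_mul_left (by omega) h2)
    omega
  · intro h1
    have h2 : g ^ (q * 4) = g ^ 4 := Units.ext (by
      rw [Units.val_pow_eq_pow_val, Units.val_pow_eq_pow_val, pow_mul, ← hstar]
      linear_combination h1)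
    have h3 : g ^ (4 * (q - 1)) = 1 := by
      have h3 : q * 4 = 4 * (q - 1) + 4 := by omega
      rw [h3, pow_add] at h2
      exact mul_eq_right.1 h2
    rw [hkey] at h3
    have := Nat.le_of_dvd (by omega) (Nat.dvd_of_mul_dvd_mul_right (by omega) h3)
    omega
  · intro ν c hν hc hns
    have hν0 : ν ≠ 0 := by
      rintro rfl
      exact hns 0 (star_zero _) (mul_zero _)
    rcases eq_or_ne c 0 with rfl | hc0
    · exact ⟨0, star_zero _, Or.inl (by simp)⟩
    obtain ⟨j, rfl⟩ := hk c hc hc0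
    obtain ⟨i, rfl⟩ := hk ν hν hν0
    rcases Nat.even_or_odd j with ⟨j', rfl⟩ | hj
    · exact ⟨ε ^ j', hεp _, Or.inl (by rw [pow_add])⟩
    rcases Nat.even_or_odd i with ⟨i', rfl⟩ | hi
    · exact absurd (by rw [pow_add]) (hns (ε ^ i') (hεp _))
    obtain ⟨m, hm⟩ := hj.add_odd hi
    refine ⟨ε ^ m * (ε ^ i)⁻¹, by rw [star_mul', star_inv₀, hεp, hεp], Or.inr ?_⟩
    have h1 : ε ^ j * ε ^ i = ε ^ m * ε ^ m := by rw [← pow_add, hm, pow_add]
    field_simp
    linear_combination h1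

end

end Cfsg.Agent.H859.P4
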