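import Cfsg.Agent.H859.P4.Pi

/-!
# S5210, Q1 for odd `p`: the group `Γ` (helper859)
-/

set_option autoImplicit false

namespace Cfsg.Agent.H859.P4

open Cfsg Cfsg.FusionSystem
open Cfsg.Agent.H756.PU (HypK NormAut)
open Cfsg.Agent.H776.P4

universe u

variable {K : Type u} [Field K] [StarRing K] {p n : ℕ}

instance : (PQ K).Normal where
  conj_mem x hx g := by
    have hx' : x.c = 0 := hx
    show (g * x * g⁻¹).c = 0
    simp [hx']

theorem finPG (H : FH K) : Finite (PG K) := by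
  have := H.fin
  exact Finite.of_injective (fun g : PG K => (g.r, g.a, g.b, g.c)) (by
    intro g g' h
    simp only [Prod.mk.injEq] at h
    exact PG.ext h.1 h.2.1 h.2.2.1 h.2.2.2)

theorem finAut (H : FH K) : Finite (MulAut (PQ K)) := by
  have := finPG H
  exact Finite.of_injective (fun γ : MulAut (PQ K) => (γ : PQ K → PQ K)) DFunLike.coe_injective

theorem mem_A {γ : MulAut (PQ K)} :
    γ ∈ autInducedBy ⊤ (PQ K) ↔ ∃ g : PG K, ∀ x : PQ K, ((γ x : PQ K) : PG K) = g * x * g⁻¹ := by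
  constructor
  · intro h
    rw [autInducedBy] at h
    induction h using Subgroup.closure_induction with
    | mem x hx => obtain ⟨g, _, hg⟩ := hx; exact ⟨g, hg⟩
    | one => exact ⟨1, fun x => by simp⟩
    | mul a b _ _ ha hb =>
      obtain ⟨g, hg⟩ := ha
      obtain ⟨g', hg'⟩ := hb
      exact ⟨g * g', fun x => by rw [MulAut.mul_apply, hg, hg']; group⟩
    | inv a _ ha =>
      obtain ⟨g, hg⟩ := ha
      refine ⟨g⁻¹, fun x => ?_⟩
      have h1 := hg (a⁻¹ x)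
      rw [MulAut.apply_inv_self] at h1
      rw [h1]; group
  · rintro ⟨g, hg⟩
    exact Subgroup.subset_closure ⟨g, Subgroup.mem_top _, hg⟩

theorem act_conj {γ : MulAut (PQ K)} {g : PG K} (hg : ∀ x : PQ K, ((γ x : PQ K) : PG K) = g * x * g⁻¹) (v : K × K) :
    act γ v = v + (-g.c) • ((0 : K), v.1) := by
  have h1 : act γ v = (((γ (sec v) : PQ K) : PG K).r, ((γ (sec v) : PQ K) : PG K).b) := rfl
  rw [h1, hg]
  ext
  · simp [sec]
  · simp only [PG.mul_b, PG.inv_b, sec, PG.mul_r, PG.inv_c, Prod.snd_add, Prod.smul_snd, smul_eq_mul]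
    ring

theorem TZ_conj {γ : MulAut (PQ K)} {g : PG K} (hg : ∀ x : PQ K, ((γ x : PQ K) : PG K) = g * x * g⁻¹) : TZ γ := by
  intro e he
  apply Subtype.ext
  rw [hg, mul_inv_eq_iff_eq_mul]
  have h1 : (e : PG K).r = 0 := congrArg Prod.fst he
  have h2 : (e : PG K).b = 0 := congrArg Prod.snd he
  have h3 : (e : PG K).c = 0 := e.2
  ext
  · simp [h1]
  · simp only [PG.mul_a, h1, h2, h3]
    simp [add_comm]
  · simp only [PG.mul_b, h1, h2, h3]
    simp
  · simp [h3]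

theorem A_form {γ : MulAut (PQ K)} (h : γ ∈ autInducedBy ⊤ (PQ K)) :
    TZ γ ∧ ∃ c : K, star c = c ∧ (∀ v, act γ v = v + c • ((0 : K), v.1)) ∧ (c = 0 → γ ∈ Inn (PQ K)) := by
  obtain ⟨g, hg⟩ := mem_A.1 h
  refine ⟨TZ_conj hg, -g.c, by rw [star_neg, g.hc], act_conj hg, fun h0 => ?_⟩
  refine ⟨⟨g, by show g.c = 0; rwa [neg_eq_zero] at h0⟩, ?_⟩
  ext1 x
  apply Subtype.ext
  rw [hg]
  rfl

theorem rxA {c : K} (hc : star c = c) : ∃ ρ ∈ autInducedBy ⊤ (PQ K), ∀ v, act ρ v = v + c • ((0 : K), v.1) := by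
  have hg : ∀ x : PQ K, ((MulAut.conjNormal (⟨0, 0, 0, -c, star_zero _, by rw [star_neg, hc]⟩ : PG K) x : PQ K) : PG K) =
      (⟨0, 0, 0, -c, star_zero _, by rw [star_neg, hc]⟩ : PG K) * x * (⟨0, 0, 0, -c, star_zero _, by rw [star_neg, hc]⟩ : PG K)⁻¹ :=
    fun x => MulAut.conjNormal_apply _ _
  refine ⟨MulAut.conjNormal (⟨0, 0, 0, -c, star_zero _, by rw [star_neg, hc]⟩ : PG K), mem_A.2 ⟨_, hg⟩, fun v => ?_⟩
  rw [act_conj hg]
  simp

theorem Inn_le : Inn (PQ K) ≤ autInducedBy ⊤ (PQ K) := by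
  rintro _ ⟨e, rfl⟩
  exact mem_A.2 ⟨(e : PG K), fun x => rfl⟩

theorem act_Inn {γ : MulAut (PQ K)} (h : γ ∈ Inn (PQ K)) (v : K × K) : act γ v = v := by
  obtain ⟨e, rfl⟩ := h
  have hg : ∀ x : PQ K, ((MulAut.conj e x : PQ K) : PG K) = (e : PG K) * x * (e : PG K)⁻¹ := fun x => rfl
  have he : (e : PG K).c = 0 := e.2
  rw [act_conj hg, he]
  simp

theorem TZ_mul {γ δ : MulAut (PQ K)} (h : TZ γ) (h' : TZ δ) : TZ (γ * δ) := fun e he => by
  rw [MulAut.mul_apply, h' e he, h e he]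

theorem TZ_inv {γ : MulAut (PQ K)} (h : TZ γ) : TZ γ⁻¹ := fun e he => by
  have h1 := congrArg (γ⁻¹ : MulAut (PQ K)) (h e he)
  rw [MulAut.inv_apply_self] at h1
  exact h1.symm

theorem TZ_cj (H : FH K) {γ δ : MulAut (PQ K)} (h : TZ δ) : TZ (γ * δ * γ⁻¹) := fun e he => by
  rw [MulAut.mul_apply, MulAut.mul_apply, h _ (pr_zero H γ⁻¹ he), MulAut.apply_inv_self]

theorem TZ_pow {γ : MulAut (PQ K)} (h : TZ γ) (m : ℕ) : TZ (γ ^ m) := by
  induction m with
  | zero => intro e _; rfl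
  | succ m ih => rw [pow_succ]; exact TZ_mul ih h

/-- the subgroup of `Γ` trivial on `Z` -/
def G0 (Γ : Subgroup (MulAut (PQ K))) : Subgroup (MulAut (PQ K)) where
  carrier := {γ | γ ∈ Γ ∧ TZ γ}
  one_mem' := ⟨Γ.one_mem, fun _ _ => rfl⟩
  mul_mem' := by
    rintro a b ⟨h1, h2⟩ ⟨k1, k2⟩
    exact ⟨Γ.mul_mem h1 k1, TZ_mul h2 k2⟩
  inv_mem' := by
    rintro a ⟨h1, h2⟩
    exact ⟨Γ.inv_mem h1, TZ_inv h2⟩

/-- the subgroup of `Γ` trivial on `Z` and `Y/Z` -/
def HH (H : FH K) (Γ : Subgroup (MulAut (PQ K))) : Subgroup (MulAut (PQ K)) where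
  carrier := {γ | γ ∈ Γ ∧ TZ γ ∧ ∀ b : K, act γ (0, b) = (0, b)}
  one_mem' := ⟨Γ.one_mem, fun _ _ => rfl, fun _ => rfl⟩
  mul_mem' := by
    rintro a b ⟨h1, h2, h3⟩ ⟨k1, k2, k3⟩
    exact ⟨Γ.mul_mem h1 k1, TZ_mul h2 k2, fun b => by rw [act_mul H, k3, h3]⟩
  inv_mem' := by
    rintro a ⟨h1, h2, h3⟩
    exact ⟨Γ.inv_mem h1, TZ_inv h2, fun b => act_inj H a (by rw [← act_mul H, mul_inv_cancel, act_one, h3])⟩

theorem act_sub (H : FH K) (γ : MulAut (PQ K)) (v w : K × K) : act γ (v - w) = act γ v - act γ w := by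
  have h := act_add H γ (v - w) w
  rw [sub_add_cancel] at h
  rw [h, add_sub_cancel_right]

theorem pow_z {z : PQ K} (hz : pr z = 0) (m : ℕ) : pr (z ^ m) = 0 ∧ ((z ^ m : PQ K) : PG K).a = m * (z : PG K).a := by
  induction m with
  | zero => exact ⟨rfl, by simp⟩
  | succ m ih =>
    obtain ⟨h1, h2⟩ := ih
    rw [pow_succ, pr_mul, h1, hz, add_zero]
    refine ⟨rfl, ?_⟩
    have h3 : (((z ^ m : PQ K) : PG K)).r = 0 := congrArg Prod.fst h1
    rw [Subgroup.coe_mul, PG.mul_a, h2, h3]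
    push_cast
    simp
    ring

theorem isP (h : HypK K p n) (H : FH K) (Γ : Subgroup (MulAut (PQ K))) : IsPGroup p (HH H Γ) := by
  have := h.char
  rintro ⟨γ, hΓ, hZ, hC⟩
  refine ⟨2, Subtype.ext ?_⟩
  rw [Subgroup.coe_pow, Subgroup.coe_one]
  simp only
  -- `γ` moves `v` by an element of `C`
  have h1 : ∀ v, (act γ v - v).1 = 0 := by
    intro v
    by_contra hne
    have h2 : ∀ b : K, ff (act γ v - v) (0, b) = 0 := by
      intro b
      have h3 : act γ v - v = act γ v + (-1 : K) • v := by rw [neg_one_smul, sub_eq_add_neg]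
      have h4 := act_ff γ hZ v (0, b)
      rw [hC b] at h4
      rw [h3, ff_add, ff_smul (by simp), h4]
      ring
    have h3 := h2 (star ((act γ v - v).1)⁻¹)
    simp only [ff, star_star, star_zero, zero_mul, add_zero, sub_zero, star_inv₀] at h3
    rw [mul_inv_cancel₀ hne, mul_inv_cancel₀ (star_ne_zero.2 hne)] at h3
    exact H.two (by rw [← h3]; norm_num)
  have h2 : ∀ w : K × K, w.1 = 0 → act γ w = w := by
    intro w hw
    have h3 : w = (0, w.2) := by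
      ext
      · exact hw
      · rfl
    rw [h3, hC]
  have h3 : ∀ (m : ℕ) v, act (γ ^ m) v = v + m • (act γ v - v) := by
    intro m v
    induction m with
    | zero => rw [pow_zero, act_one, zero_smul, add_zero]
    | succ m ih =>
      rw [pow_succ', act_mul H, ih, act_add H, h2 (m • (act γ v - v)) (by rw [Prod.smul_fst, h1, smul_zero]), succ_nsmul]
      abel
  have h4 : ∀ v, act (γ ^ p) v = v := by
    intro v
    rw [h3]
    have h5 : p • (act γ v - v) = 0 := by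
      ext
      · rw [Prod.smul_fst, nsmul_eq_mul, CharP.cast_eq_zero]; simp
      · rw [Prod.smul_snd, nsmul_eq_mul, CharP.cast_eq_zero]; simp
    rw [h5, add_zero]
  set δ := γ ^ p with hδ
  have hδZ : TZ δ := TZ_pow hZ p
  have h5 : δ ^ p = 1 := by
    ext1 e
    have hz : pr (δ e * e⁻¹) = 0 := by
      rw [pr_mul, pr_inv, ← act_pr H, h4, add_neg_cancel]
    have hze := hδZ _ hz
    have h6 : ∀ m : ℕ, (δ ^ m) e = (δ e * e⁻¹) ^ m * e := by
      intro m
      induction m with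
      | zero => simp
      | succ m ih =>
        rw [pow_succ', MulAut.mul_apply, ih, map_mul, map_pow, hze, pow_succ]
        group
    rw [h6]
    have h7 := pow_z hz p
    have h8 : (δ e * e⁻¹) ^ p = 1 := by
      have h9 := zz_of _ h7.1
      rw [h9]
      have h10 : (((δ e * e⁻¹) ^ p : PQ K) : PG K).a = 0 := by
        rw [h7.2, CharP.cast_eq_zero, zero_mul]
      apply Subtype.ext
      ext
      · rfl
      · exact h10
      · rfl
      · rfl
    rw [h8, one_mul]; rfl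
  rw [pow_two, pow_mul, ← hδ, h5]

variable {Γ : Subgroup (MulAut (PQ K))} {D : Subgroup (MulAut (PG K))}

theorem HH_eq (h : HypK K p n) (H : FH K) (hP : ParP p (PQ K) Γ D) : HH H Γ = autInducedBy ⊤ (PQ K) := by
  have := finAut H
  have hle : autInducedBy ⊤ (PQ K) ≤ HH H Γ := by
    intro γ hγ
    obtain ⟨h1, c, hc, h2, _⟩ := A_form hγ
    refine ⟨hP.indu hγ, h1, fun b => ?_⟩
    rw [h2]; simp
  refine (Subgroup.eq_of_le_of_card_ge hle ?_).symm
  obtain ⟨g, _, hg⟩ := hP.syl (HH H Γ) (fun x hx => hx.1) (isP h H Γ)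
  exact Nat.card_le_card_of_injective (fun x : HH H Γ => (⟨g * x * g⁻¹, hg x x.2⟩ : autInducedBy ⊤ (PQ K))) (by
    intro x y hxy
    have h1 : g * (x : MulAut (PQ K)) * g⁻¹ = g * (y : MulAut (PQ K)) * g⁻¹ := congrArg Subtype.val hxy
    exact Subtype.ext (mul_left_cancel (mul_right_cancel h1)))

theorem memA (h : HypK K p n) (H : FH K) (hP : ParP p (PQ K) Γ D) {γ : MulAut (PQ K)} (hγ : γ ∈ Γ) {c : K}
    (hc : star c = c) (h1 : ∀ v, act γ v = v + c • ((0 : K), v.1)) : γ ∈ autInducedBy ⊤ (PQ K) := by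
  obtain ⟨ρ, hρ, hρ'⟩ := rxA hc
  have h2 : ∀ v, act (ρ⁻¹ * γ) v = v := by
    intro v
    apply act_inj H ρ
    rw [← act_mul H, mul_inv_cancel_left, h1, hρ']
  have h3 : ρ⁻¹ * γ ∈ HH H Γ := ⟨Γ.mul_mem (Γ.inv_mem (hP.indu hρ)) hγ, TZ_of_act H _ h2, fun b => h2 _⟩
  rw [HH_eq h H hP] at h3
  have h4 := Subgroup.mul_mem _ hρ h3
  rwa [mul_inv_cancel_left] at h4

end Cfsg.Agent.H859.P4
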